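import Cfsg.Agent.H620.PNorm
import Cfsg.Agent.H417.JOneDeg
import Cfsg.Agent.H419.Row

/-!
# `VPow 2` for `J1` (helper446)

The three exceptional characters of the principal 19-block have degree 120, which is divisible by 8.
-/

set_option autoImplicit false

namespace Cfsg.Agent.H446.VP

open Cfsg Subgroup Cfsg.Agent.H713 Cfsg.Agent.H419.Row Cfsg.Agent.H620.PNorm
open Cfsg.Agent.Characters.Core
open Cfsg.Agent.M23Order.Base
open Cfsg.Agent.H413.JOneSpec
open Cfsg.Agent.SporRec.J1.Defs
open Cfsg.Agent.H417 Cfsg.Agent.H417.JOneDeg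

universe u

variable {K : Type u} [Group K]

set_option maxHeartbeats 1000000 in
/-- There is a character of degree 120. -/
theorem exists_120 [Finite K] [IsSimpleGroup K] (h : Local K) (hc : Nat.card K = 175560) :
    ∃ χ : IrrCharacter K, dg χ = 120 := by
  classical
  have := finite_irr (G := K)
  let _ := Fintype.ofFinite (IrrCharacter K)
  have f7 : Fact (Nat.Prime 7) := ⟨by norm_num⟩
  have f11 : Fact (Nat.Prime 11) := ⟨by norm_num⟩
  have f19 : Fact (Nat.Prime 19) := ⟨by norm_num⟩
  obtain ⟨P, hP, ⟨D⟩⟩ := BlockCount.exists_SC (G := K) 7 (by norm_num) (by rw [hc]; norm_num)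
    (by rw [hc]; norm_num) (fun y hy => by rw [card_cent h hc (by rw [hy]; unfold Big; tauto), hy]) (e := 6) (t := 1)
    (by rw [hc]) (by norm_num)
  obtain ⟨Q, hQ, ⟨E⟩⟩ := BlockCount.exists_SC (G := K) 11 (by norm_num) (by rw [hc]; norm_num)
    (by rw [hc]; norm_num) (fun y hy => by rw [card_cent h hc (by rw [hy]; unfold Big; tauto), hy]) (e := 10) (t := 1)
    (by rw [hc]) (by norm_num)
  obtain ⟨R, hR, ⟨F⟩⟩ := BlockCount.exists_SC (G := K) 19 (by norm_num) (by rw [hc]; norm_num)
    (by rw [hc]; norm_num) (fun y hy => by rw [card_cent h hc (by rw [hy]; unfold Big; tauto), hy]) (e := 6) (t := 3)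
    (by rw [hc]) (by norm_num)
  have hmem : ∀ χ : IrrCharacter K, dg χ ∈ ({1, 56, 76, 77, 120, 132, 133, 209} : Finset ℕ) := by
    intro χ
    have h1 := Divs.all_divs _ primes_ok (N := 175560) rfl deg_list (d := dg χ) (by rw [← hc]; exact dg_dvd χ)
    have h2 := BlockCount.mod_cases D (by norm_num) (by norm_num) (by norm_num) χ
    have h3 := BlockCount.mod_cases E (by norm_num) (by norm_num) (by norm_num) χ
    have h4 := BlockCount.mod_cases F (by norm_num) (by norm_num) (by norm_num) χ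
    have h5 := ne_210 h hc χ
    have h6 : dg χ ^ 2 ≤ 175560 := by
      have h7 := sum_dg_sq_le {χ}
      rw [Finset.sum_singleton, hc] at h7
      exact h7
    simp only [Finset.mem_insert, Finset.mem_singleton]
    simp only [Bool.or_eq_true, decide_eq_true_eq, Bool.not_eq_true', beq_iff_eq, Bool.or_eq_false_iff,
      beq_eq_false_iff_ne] at h1
    omega
  have x19 := BlockCount.card_exc F (by norm_num) (by norm_num) (by norm_num)
  rw [card_filter_eq (fun χ : IrrCharacter K => dg χ) _ hmem (fun d => d % 19 = 6 ∨ d % 19 = 19 - 6)] at x19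
  rw [show (({1, 56, 76, 77, 120, 132, 133, 209} : Finset ℕ).filter fun d => d % 19 = 6 ∨ d % 19 = 19 - 6) =
    {120} by decide +kernel] at x19
  rw [Finset.sum_singleton] at x19
  by_contra hno
  have h209 : cnt (fun χ : IrrCharacter K => dg χ) 120 = 0 := by
    rw [cnt, Finset.card_eq_zero, Finset.filter_eq_empty_iff]
    intro χ _ h2
    exact hno ⟨χ, h2⟩
  rw [h209] at x19
  omega

/-- `J1` has a character of 2-defect zero. -/
theorem dz_j1 : DZ 2 Spor.J1 := by
  have : IsSimpleGroup Spor.J1 := SporadicB.J1.Main.isJ1.1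
  have hfin : Finite Spor.J1 := Nat.finite_of_card_ne_zero (by rw [H413.JOneLocal.card_J1]; norm_num)
  obtain ⟨χ, hχ⟩ := exists_120 H413.JOneLocal.isLocal H413.JOneLocal.card_J1
  exact dz_of_dvd (n := 3) χ (by
      rw [show charDegree (χ : Spor.J1 → ℂ) = 120 from hχ]
      norm_num)
    (Cfsg.Agent.H419.Row.factorization_eq (m := 21945) Nat.prime_two (by rw [H413.JOneLocal.card_J1]; norm_num) (by norm_num))
    Nat.prime_two

theorem j1_2 {K : Type*} [Group K] (h : Spor.IsoJ1 K) : VPow 2 K := by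
  obtain ⟨e⟩ := h
  have hfin : Finite Spor.J1 := Nat.finite_of_card_ne_zero (by rw [H413.JOneLocal.card_J1]; norm_num)
  have : Fact (Nat.Prime 2) := ⟨Nat.prime_two⟩
  obtain ⟨y, hy⟩ := exists_prime_orderOf_dvd_card' (G := Spor.J1) 2 (by rw [H413.JOneLocal.card_J1]; norm_num)
  refine VPow.mulEquiv ?_ e.symm
  exact ⟨y, ⟨1, by rw [hy, pow_one]⟩, vz_of_dz Nat.prime_two dz_j1 (by rw [hy])⟩

end Cfsg.Agent.H446.VP
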