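import Cfsg.Agent.H620.PNorm
import Cfsg.Agent.H119.IMC.M22
import Cfsg.Agent.J4Type.Aut22
import Cfsg.Agent.H419.Spor.Mathieu

/-!
# `VPow 2` for `M22` (helper446)

The character of degree 154 (heptads minus points) vanishes at the elements of order 8: they have no fixed
points on the 22 points, so they fix no heptad.
-/

set_option autoImplicit false
open scoped Pointwise

namespace Cfsg.Agent.H446.VP

open Cfsg Cfsg.Agent.H713 Cfsg.Agent.H119.IMC MulAction Cfsg.Agent.H852.IMMathieu
  Cfsg.Agent.H419.Spor.Mathieu Cfsg.Agent.H620.PNorm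

/-- A 2-element without fixed points on the 22 points is a zero of the character of degree 154. -/
theorem dif_eq_zero (z : Spor.M22) (k : ℕ) (hz : z ^ 2 ^ k = 1)
    (hf : ∀ x : GolayPt, x ∈ YS → (z : Equiv.Perm GolayPt) x ≠ x) :
    letI := actY; letI := actX; dif (G := Spor.M22) XP YS z = 0 := by
  let _ := actY
  let _ := actX
  have : Fact (Nat.Prime 2) := ⟨Nat.prime_two⟩
  have h1 : IsEmpty (fixedBy YS z) := ⟨fun y => hf y.1 y.1.2 (congrArg Subtype.val y.2)⟩
  have h2 : IsEmpty (fixedBy XP z) := by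
    refine ⟨fun o => ?_⟩
    obtain ⟨⟨o, ho⟩, hfix⟩ := o
    have hfix' : (z : Equiv.Perm GolayPt) • o = o := congrArg Subtype.val hfix
    have hn : (z : Equiv.Perm GolayPt) none = none := z.2.1.2
    have hmem : ∀ p ∈ o.erase none, (z : Equiv.Perm GolayPt) p ∈ o.erase none := by
      intro p hp
      rw [Finset.mem_erase] at hp ⊢
      refine ⟨fun h => hp.1 ((z : Equiv.Perm GolayPt).injective (h.trans hn.symm)), ?_⟩
      rw [← hfix']
      exact Finset.smul_mem_smul_finset hp.2
    let f : Function.End {p // p ∈ o.erase none} := fun p => ⟨(z : Equiv.Perm GolayPt) p, hmem p p.2⟩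
    have hpow : ∀ (m : ℕ) (p : {p // p ∈ o.erase none}), (((f ^ m : Function.End _) p : {p // p ∈ o.erase none}) : GolayPt) =
        (((z ^ m : Spor.M22) : Equiv.Perm GolayPt)) p := by
      intro m
      induction m with
      | zero => intro p; rfl
      | succ m ih =>
        intro p
        rw [pow_succ', pow_succ']
        show (z : Equiv.Perm GolayPt) ((f ^ m : Function.End _) p : {p // p ∈ o.erase none}) = _
        rw [ih]
        rfl
    have hf1 : f ^ 2 ^ k = 1 := by
      funext p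
      apply Subtype.ext
      rw [hpow, hz]
      rfl
    have h3 := Equiv.Perm.card_fixedPoints_modEq hf1
    have h7 : Fintype.card {p // p ∈ o.erase none} = 7 := by
      rw [Fintype.card_coe, Finset.card_erase_of_mem ho.2.1, card_oct ho.1]
    have h8 : 0 < Fintype.card f.fixedPoints := by
      rw [h7] at h3
      rcases Nat.eq_zero_or_pos (Fintype.card f.fixedPoints) with h | h
      · rw [h] at h3
        exact absurd h3 (by decide)
      · exact h
    obtain ⟨⟨⟨p, hp⟩, hpf⟩⟩ := Fintype.card_pos_iff.1 h8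
    have h9 : (z : Equiv.Perm GolayPt) p = p := congrArg Subtype.val hpf
    rw [Finset.mem_erase] at hp
    exact hf p ⟨hp.1, fun h => ho.2.2 (h ▸ hp.2)⟩ h9
  unfold dif
  rw [Nat.card_eq_zero.2 (Or.inl h1), Nat.card_eq_zero.2 (Or.inl h2)]
  norm_num

/-- The element of order 8. -/
noncomputable def v8 : Spor.M22 := ⟨T * cubeTwist * T * cubeTwist * T * M,
  ⟨mul_mem (mul_mem (mul_mem (mul_mem (mul_mem T_mem C_mem) T_mem) C_mem) T_mem) M_mem, by
      show (T * cubeTwist * T * cubeTwist * T * M) none = none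
      decide +kernel⟩, by
      show (T * cubeTwist * T * cubeTwist * T * M) (some 0) = some 0
      decide +kernel⟩

theorem v8_pow : v8 ^ 2 ^ 3 = 1 := by
  apply Subtype.ext
  show (T * cubeTwist * T * cubeTwist * T * M) ^ 2 ^ 3 = 1
  apply Equiv.ext
  decide +kernel

theorem v8_fix (x : GolayPt) (hx : x ∈ YS) : (v8 : Equiv.Perm GolayPt) x ≠ x := by
  have h : ∀ p : GolayPt, (T * cubeTwist * T * cubeTwist * T * M) p = p → p = none ∨ p = some 0 := by
    decide +kernel
  intro h1
  rcases h x h1 with h2 | h2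
  · exact hx.1 h2
  · exact hx.2 h2

theorem m22_2' : VPow 2 Spor.M22 := by
  refine ⟨v8, ?_, ?_⟩
  · obtain ⟨j, -, hj⟩ := (Nat.dvd_prime_pow Nat.prime_two).1 (orderOf_dvd_of_pow_eq_one v8_pow)
    exact ⟨j, hj⟩
  · refine ⟨⟨_, irr154⟩, fun α => dif_eq_zero (α v8) 3 (by rw [← map_pow, v8_pow, map_one]) ?_⟩
    intro x hx h
    obtain ⟨g, hg, hgα⟩ := Cfsg.Agent.J4Type.Aut22.exists_conj α
    have hgi := (Cfsg.Agent.J4Type.Aut22.D22).inv_mem hg
    have h1 : Cfsg.Agent.J4Type.Aut22.Out (g⁻¹ x) := Cfsg.Agent.J4Type.Aut22.Out.apply hgi hx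
    refine v8_fix _ h1 ?_
    rw [hgα v8] at h
    have h2 : g ((v8 : Equiv.Perm GolayPt) (g⁻¹ x)) = x := h
    apply g.injective
    rw [h2]
    show x = (g * g⁻¹) x
    rw [mul_inv_cancel]
    rfl

theorem m22_2 {K : Type*} [Group K] (h : Spor.IsoM22 K) : VPow 2 K := by
  obtain ⟨e⟩ := h
  exact m22_2'.mulEquiv e.symm

end Cfsg.Agent.H446.VP
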