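import Cfsg.Agent.H620.PNorm
import Cfsg.Agent.H419.Spor.M11
import Cfsg.Agent.H419.Spor.M12
import Cfsg.Agent.H419.Spor.M23
import Cfsg.Agent.UGT.End.MEleven
import Cfsg.Agent.H621.AltChar

/-!
# `VPow 2` for `M11`, `M12`, `M23`, `M24` (helper446)
-/

set_option autoImplicit false

namespace Cfsg.Agent.H446.VP

open Cfsg Cfsg.Agent.H713 Cfsg.Agent.H419.Row Cfsg.Agent.H419.Count Cfsg.Agent.H419.TwoTrans
  Cfsg.Agent.H419.Spor.Mathieu Cfsg.Agent.H620.PNorm Cfsg.Agent.H621.AltChar

/-- `M11` has a character of degree 16. -/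
theorem m11_2 {K : Type*} [Group K] (h : Spor.IsoM11 K) : VPow 2 K := by
  have h1 : Cfsg.IsM11 K := Cfsg.Agent.UGT.End.MEleven.isM11 h
  have hfin : Finite K := Nat.finite_of_card_ne_zero (by rw [h1.2]; norm_num)
  obtain ⟨x, -, v, hv⟩ := Cfsg.Agent.SporadicA.M11Facts.exists_caseC h1
  have h2 : DZ 2 K := dz_of_dvd (n := 4) (v 5) (by
      rw [show charDegree ((v 5 : IrrCharacter K) : K → ℂ) = 16 from
        Blocks.Basic.charDegree_of_eq (by simpa using hv.degs 5)]
      norm_num)
    (factorization_eq (m := 495) Nat.prime_two (by rw [h1.2]; norm_num) (by norm_num)) Nat.prime_two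
  have : Fact (Nat.Prime 2) := ⟨Nat.prime_two⟩
  obtain ⟨y, hy⟩ := exists_prime_orderOf_dvd_card' (G := K) 2 (by rw [h1.2]; norm_num)
  exact ⟨y, ⟨1, by rw [hy, pow_one]⟩, vz_of_dz Nat.prime_two h2 (by rw [hy])⟩

/-- The value of the character of degree `n (n - 3) / 2` at an element with two fixed points and one
transposition. -/
theorem vz_of_two_one {G : Type*} [Group G] [Finite G] (Ω : Type*) [MulAction G Ω] [Finite Ω]
    (h5 : 5 ≤ Nat.card Ω) (h : MulAction.IsMultiplyPretransitive G Ω 4) {x : G}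
    (hx : ∀ α : MulAut G, (nf Ω (α x) = 2 ∧ nu Ω (α x) = 2) ∨ (nf Ω (α x) = 0 ∧ nu Ω (α x) = 0)) :
    VZ G x := by
  have := Fintype.ofFinite G
  refine ⟨⟨_, irr_a G Ω h5 h⟩, fun α => ?_⟩
  show ((nf Ω (α x) : ℂ) ^ 2 - 3 * nf Ω (α x) + nu Ω (α x)) / 2 = 0
  rcases hx α with ⟨h1, h2⟩ | ⟨h1, h2⟩ <;> rw [h1, h2] <;> norm_num

/-! ### `M12` -/

section M12

open Cfsg.Agent.H419.Spor.M12

local notation "D" => Spor.squareDodecad

theorem four_trans12 : MulAction.IsMultiplyPretransitive Spor.M12 Pts 4 := by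
  have h5 : MulAction.IsMultiplyPretransitive Spor.M12 Pts 5 := by
    constructor
    intro x y
    let x' : Fin 5 ↪ GolayPt := x.trans (Function.Embedding.subtype _)
    let y' : Fin 5 ↪ GolayPt := y.trans (Function.Embedding.subtype _)
    obtain ⟨g, hg, -⟩ := Cfsg.Agent.S0384.result D Cfsg.Agent.Schreier.MEleven.squareDodecad_mem x' y'
      (fun i => (x i).2) (fun i => (y i).2)
    refine ⟨⟨g.1.1, g.1.2, g.2⟩, ?_⟩
    apply DFunLike.ext
    intro i
    exact Subtype.ext (hg i)
  refine MulAction.isMultiplyPretransitive_of_le (n := 5) (by norm_num) ?_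
  rw [Nat.card_eq_fintype_card]
  decide +kernel

/-- The number of points of the dodecad in 2-cycles. -/
def ux (g : Equiv.Perm GolayPt) : ℕ :=
  (Finset.univ.filter (fun p : Pts => g p.1 ≠ p.1 ∧ g (g p.1) = p.1)).card

theorem nf12 (g : Spor.M12) : nf Pts g = fx g := card_fixed g

theorem nu12 (g : Spor.M12) : nu Pts g = ux g := by
  unfold nu ux
  rw [Nat.card_eq_fintype_card]
  refine Fintype.card_of_subtype _ fun p => ?_
  rw [Finset.mem_filter]
  constructor
  · rintro ⟨-, h, h2⟩
    exact ⟨fun h3 => h (congrArg Subtype.val h3), Subtype.ext h2⟩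
  · rintro ⟨h, h2⟩
    exact ⟨Finset.mem_univ _, fun h3 => h (Subtype.ext h3), congrArg Subtype.val h2⟩

theorem nf_conj {G Ω : Type*} [Group G] [MulAction G Ω] (m g : G) :
    nf Ω (MulAut.conj m g) = nf Ω g := by
  unfold nf
  refine Nat.card_congr ⟨fun a => ⟨m⁻¹ • (a : Ω), ?_⟩, fun a => ⟨m • (a : Ω), ?_⟩, ?_, ?_⟩
  · obtain ⟨a, ha⟩ := a
    have h : (m * g * m⁻¹) • a = a := ha
    rw [mul_smul, mul_smul] at h
    rw [eq_inv_smul_iff]
    exact h
  · obtain ⟨a, ha⟩ := a
    show (m * g * m⁻¹) • (m • a) = m • a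
    rw [mul_smul, mul_smul, inv_smul_smul, ha]
  · intro a
    exact Subtype.ext (smul_inv_smul _ _)
  · intro a
    exact Subtype.ext (inv_smul_smul _ _)

theorem nu_conj {G Ω : Type*} [Group G] [MulAction G Ω] [Finite Ω] (m g : G) :
    nu Ω (MulAut.conj m g) = nu Ω g := by
  have h1 := nf_mul_self (Ω := Ω) g
  have h2 := nf_mul_self (Ω := Ω) (MulAut.conj m g)
  rw [← map_mul, nf_conj, nf_conj] at h2
  omega

theorem x8_pow : x8 ^ 8 = 1 := by
  apply Subtype.ext
  show w8 ^ 8 = 1
  apply Equiv.ext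
  decide +kernel

theorem m12_2' : VPow 2 Spor.M12 := by
  have hfin : Finite Spor.M12 := inferInstance
  refine ⟨x8, ?_, ?_⟩
  · have h := orderOf_dvd_of_pow_eq_one x8_pow
    obtain ⟨j, -, hj⟩ := (Nat.dvd_prime_pow Nat.prime_two).1 (by simpa using h : orderOf x8 ∣ 2 ^ 3)
    exact ⟨j, hj⟩
  · refine vz_of_two_one Pts ?_ four_trans12 fun α => ?_
    · rw [Nat.card_eq_fintype_card]
      decide +kernel
    · rcases mem_or α with ⟨m, rfl⟩ | ⟨m, rfl⟩
      · left
        rw [nf_conj, nu_conj, nf12, nu12]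
        constructor
        · show fx w8 = 2
          decide +kernel
        · show ux w8 = 2
          decide +kernel
      · right
        show nf Pts (MulAut.conj m (bt x8)) = 0 ∧ nu Pts (MulAut.conj m (bt x8)) = 0
        rw [nf_conj, nu_conj, nf12, nu12]
        constructor
        · show fx (projInv * w8 * projInv⁻¹) = 0
          decide +kernel
        · show ux (projInv * w8 * projInv⁻¹) = 0
          decide +kernel

theorem m12_2 {K : Type*} [Group K] (h : Spor.IsoM12 K) : VPow 2 K := by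
  obtain ⟨e⟩ := h
  exact m12_2'.mulEquiv e.symm

end M12

/-! ### `M24` -/

/-- The element of order 8 of `M24`. -/
noncomputable def y8 : M24 := ⟨T * M * T * cubeTwist, mul_mem (mul_mem (mul_mem T_mem M_mem) T_mem) C_mem⟩

theorem y8_pow : y8 ^ 8 = 1 := by
  apply Subtype.ext
  show (T * M * T * cubeTwist) ^ 8 = 1
  apply Equiv.ext
  decide +kernel

theorem m24_2' : VPow 2 M24 := by
  refine ⟨y8, ?_, ?_⟩
  · have h := orderOf_dvd_of_pow_eq_one y8_pow
    obtain ⟨j, -, hj⟩ := (Nat.dvd_prime_pow Nat.prime_two).1 (by simpa using h : orderOf y8 ∣ 2 ^ 3)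
    exact ⟨j, hj⟩
  · refine vz_of_two_one GolayPt ?_ ?_ fun α => ?_
    · rw [Nat.card_eq_fintype_card]
      decide
    · have h5 := Cfsg.Agent.S0366.result
      exact MulAction.isMultiplyPretransitive_of_le (n := 5) (by norm_num) (by
        rw [Nat.card_eq_fintype_card]
        decide)
    · left
      obtain ⟨m, rfl⟩ := Cfsg.Agent.KFacts.M24Two.Out.exists_conj α
      rw [nf_conj, nu_conj]
      constructor
      · unfold nf
        rw [Nat.card_eq_fintype_card]
        have h : Fintype.card {a : GolayPt // (T * M * T * cubeTwist) a = a} = 2 := by decide +kernel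
        rw [← h]
        exact Fintype.card_congr (Equiv.refl _)
      · unfold nu
        rw [Nat.card_eq_fintype_card]
        have h : Fintype.card {a : GolayPt // (T * M * T * cubeTwist) a ≠ a ∧
          (T * M * T * cubeTwist) ((T * M * T * cubeTwist) a) = a} = 2 := by decide +kernel
        rw [← h]
        exact Fintype.card_congr (Equiv.refl _)

theorem m24_2 {K : Type*} [Group K] (h : Spor.IsoM24 K) : VPow 2 K := by
  obtain ⟨e⟩ := h
  exact m24_2'.mulEquiv e.symm

/-! ### `M23` -/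

section M23

open Cfsg.Agent.H419.Spor.M23

noncomputable def z8 : St := ⟨y8, by
  show (T * M * T * cubeTwist) none = none
  decide +kernel⟩

theorem z8_pow : z8 ^ 8 = 1 := Subtype.ext y8_pow

theorem z8_fix : Nat.card (MulAction.fixedBy (SubMulAction.ofStabilizer M24 (none : GolayPt)) z8) = 1 := by
  rw [Nat.card_eq_one_iff_exists]
  have h : ∃ q : GolayPt, q ≠ none ∧ ∀ p : GolayPt, (T * M * T * cubeTwist) p = p ↔ p = none ∨ p = q := by
    decide +kernel
  obtain ⟨q, hq, h⟩ := h
  refine ⟨⟨⟨q, ?_⟩, ?_⟩, ?_⟩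
  · rw [SubMulAction.mem_ofStabilizer_iff]
    exact hq
  · apply Subtype.ext
    exact (h q).2 (Or.inr rfl)
  · rintro ⟨⟨p, hp⟩, hp2⟩
    apply Subtype.ext
    apply Subtype.ext
    rw [SubMulAction.mem_ofStabilizer_iff] at hp
    have h3 : (T * M * T * cubeTwist) p = p := congrArg Subtype.val hp2
    rcases (h p).1 h3 with h4 | h4
    · exact absurd h4 hp
    · exact h4

theorem m23_2' : VPow 2 Spor.M23 := by
  have hv : Van Spor.M23 (e z8) := by
    refine Van.of_surjective (e.symm : Spor.M23 →* St) e.symm.surjective ?_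
    simp only [MonoidHom.coe_coe, MulEquiv.symm_apply_apply]
    refine van_of_fix_one (SubMulAction.ofStabilizer M24 (none : GolayPt)) ?_ ?_ z8_fix
    · have h5 := Cfsg.Agent.S0366.result
      have h1 : MulAction.IsPretransitive M24 GolayPt := by
        rw [← MulAction.is_one_pretransitive_iff]
        exact MulAction.isMultiplyPretransitive_of_le (n := 5) (by norm_num) (by
          rw [Nat.card_eq_fintype_card]
          decide)
      have h4 : MulAction.IsMultiplyPretransitive St
          (SubMulAction.ofStabilizer M24 (none : GolayPt)) 4 :=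
        SubMulAction.ofStabilizer.isMultiplyPretransitive.1 h5
      refine MulAction.isMultiplyPretransitive_of_le (n := 4) (by norm_num) ?_
      rw [SubMulAction.nat_card_ofStabilizer_eq, Nat.card_eq_fintype_card]
      decide
    · rw [SubMulAction.nat_card_ofStabilizer_eq, Nat.card_eq_fintype_card]
      decide
  refine ⟨e z8, ?_, vz_of_inner hv Cfsg.Agent.UGT.MTwentyThree.Aut.exists_conj⟩
  rw [MulEquiv.orderOf_eq]
  have h := orderOf_dvd_of_pow_eq_one z8_pow
  obtain ⟨j, -, hj⟩ := (Nat.dvd_prime_pow Nat.prime_two).1 (by simpa using h : orderOf z8 ∣ 2 ^ 3)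
  exact ⟨j, hj⟩

theorem m23_2 {K : Type*} [Group K] (h : Spor.IsoM23 K) : VPow 2 K := by
  obtain ⟨e⟩ := h
  exact m23_2'.mulEquiv e.symm

end M23

end Cfsg.Agent.H446.VP
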